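import Mathlib
import Cfsg.Agent.H508.AltSec

/-!
# Two maximal subgroups with alternating sections

`A`, `B` two conjugate subgroups, `K`, `L` the cores of `A ⊓ B` in `A` and in `B`, with alternating quotients.
If no nontrivial subgroup of `L` is normalised by `A`, then `K ⊓ L = 1`.
-/

set_option autoImplicit false
set_option linter.unusedSectionVars false

namespace Cfsg.Agent.H508.AltConf

open Subgroup
open Cfsg.Agent.H508.AltSec
open scoped commutatorElement

variable {G : Type*} [Group G]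

/-! ### Conjugates -/

/-- The conjugate `x X x⁻¹`. -/
abbrev cj (x : G) (X : Subgroup G) : Subgroup G := X.map (MulAut.conj x).toMonoidHom

theorem mem_cj {x y : G} {X : Subgroup G} : y ∈ cj x X ↔ x⁻¹ * y * x ∈ X := by
  rw [cj, mem_map_equiv, MulAut.conj_symm_apply]

theorem card_cj (x : G) (X : Subgroup G) : Nat.card (cj x X) = Nat.card X :=
  card_map_of_injective (MulAut.conj x).injective

theorem cj_cj (x y : G) (X : Subgroup G) : cj x (cj y X) = cj (x * y) X := by
  ext z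
  rw [mem_cj, mem_cj, mem_cj]
  rw [show y⁻¹ * (x⁻¹ * z * x) * y = (x * y)⁻¹ * z * (x * y) by group]

theorem cj_one (X : Subgroup G) : cj 1 X = X := by
  ext z
  rw [mem_cj]; simp

theorem cj_mono {x : G} {X Y : Subgroup G} (h : X ≤ Y) : cj x X ≤ cj x Y := map_mono h

theorem le_cj_iff {x : G} {X Y : Subgroup G} : X ≤ cj x Y ↔ cj x⁻¹ X ≤ Y := by
  constructor
  · intro h
    have := cj_mono (x := x⁻¹) h
    rwa [cj_cj, inv_mul_cancel, cj_one] at this
  · intro h
    have := cj_mono (x := x) h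
    rwa [cj_cj, mul_inv_cancel, cj_one] at this

theorem cj_inf (x : G) (X Y : Subgroup G) : cj x (X ⊓ Y) = cj x X ⊓ cj x Y := by
  ext z
  simp only [mem_inf, mem_cj]

theorem cj_sup (x : G) (X Y : Subgroup G) : cj x (X ⊔ Y) = cj x X ⊔ cj x Y := map_sup _ _ _

theorem cj_eq_of_mem {x : G} {X : Subgroup G} (h : x ∈ normalizer (X : Set G)) : cj x X = X := by
  ext z
  rw [mem_cj]
  have := mem_normalizer_iff.mp (inv_mem h) z
  rw [inv_inv] at this
  exact this.symm

theorem mem_norm_iff {x : G} {X : Subgroup G} : x ∈ normalizer (X : Set G) ↔ cj x X = X := by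
  refine ⟨cj_eq_of_mem, fun h => ?_⟩
  rw [← inv_mem_iff, mem_normalizer_iff]
  intro z
  rw [inv_inv, ← mem_cj, h]

theorem norm_cj {x : G} {X Y : Subgroup G} (h : X ≤ normalizer (Y : Set G)) :
    cj x X ≤ normalizer ((cj x Y : Subgroup G) : Set G) := by
  intro z hz
  rw [mem_cj] at hz
  have h1 := cj_eq_of_mem (h hz)
  rw [mem_norm_iff, cj_cj]
  conv_rhs => rw [← h1]
  rw [cj_cj]
  congr 1
  group

theorem cj_centralizer (x : G) (X : Subgroup G) :
    cj x (centralizer (X : Set G)) = centralizer ((cj x X : Subgroup G) : Set G) := by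
  ext z
  rw [mem_cj, mem_centralizer_iff, mem_centralizer_iff]
  constructor
  · intro h y hy
    have h1 := h _ (mem_cj.mp hy)
    have h2 := congrArg (fun w => x * w * x⁻¹) h1
    have e1 : x * (x⁻¹ * y * x * (x⁻¹ * z * x)) * x⁻¹ = y * z := by group
    have e2 : x * (x⁻¹ * z * x * (x⁻¹ * y * x)) * x⁻¹ = z * y := by group
    rwa [e1, e2] at h2
  · intro h y hy
    have h0 : x * y * x⁻¹ ∈ cj x X := by
      rw [mem_cj]
      have e : x⁻¹ * (x * y * x⁻¹) * x = y := by group
      rwa [e]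
    have h1 := h _ h0
    have h2 := congrArg (fun w => x⁻¹ * w * x) h1
    have e1 : x⁻¹ * (x * y * x⁻¹ * z) * x = y * (x⁻¹ * z * x) := by group
    have e2 : x⁻¹ * (z * (x * y * x⁻¹)) * x = x⁻¹ * z * x * y := by group
    rwa [e1, e2] at h2

theorem norm_centralizer {X Z : Subgroup G} (h : Z ≤ normalizer (X : Set G)) :
    Z ≤ normalizer ((centralizer (X : Set G) : Subgroup G) : Set G) := by
  intro z hz
  rw [mem_norm_iff, cj_centralizer, cj_eq_of_mem (h hz)]

theorem norm_commutator {X Z : Subgroup G} (h : Z ≤ normalizer (X : Set G)) :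
    Z ≤ normalizer ((⁅X, X⁆ : Subgroup G) : Set G) := by
  intro z hz
  rw [mem_norm_iff, cj, map_commutator]
  have := cj_eq_of_mem (h hz)
  rw [cj] at this
  rw [this]

/-- The core of `X` under `A`. -/
def coreIn (A X : Subgroup G) : Subgroup G := ⨅ x : A, cj (x : G) X

theorem mem_coreIn {A X : Subgroup G} {y : G} : y ∈ coreIn A X ↔ ∀ x ∈ A, y ∈ cj x X := by
  simp only [coreIn, mem_iInf, Subtype.forall]

theorem coreIn_le (A X : Subgroup G) : coreIn A X ≤ X := by
  intro y hy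
  have := mem_coreIn.mp hy 1 (one_mem A)
  rwa [cj_one] at this

theorem norm_coreIn (A X : Subgroup G) : A ≤ normalizer ((coreIn A X : Subgroup G) : Set G) := by
  intro a ha
  rw [mem_norm_iff]
  ext y
  rw [mem_cj, mem_coreIn, mem_coreIn]
  constructor
  · intro h x hx
    have h1 := h (a⁻¹ * x) (mul_mem (inv_mem ha) hx)
    rw [mem_cj] at *
    have e : (a⁻¹ * x)⁻¹ * (a⁻¹ * y * a) * (a⁻¹ * x) = x⁻¹ * y * x := by group
    rwa [e] at h1
  · intro h x hx
    have h1 := h (a * x) (mul_mem ha hx)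
    rw [mem_cj] at *
    have e : (a * x)⁻¹ * y * (a * x) = x⁻¹ * (a⁻¹ * y * a) * x := by group
    rwa [e] at h1

theorem ded {X Y Z : Subgroup G} (hX : X ≤ Z) (hn : X ≤ normalizer (Y : Set G)) :
    (X ⊔ Y) ⊓ Z ≤ X ⊔ (Y ⊓ Z) := by
  rintro w ⟨hw, hz⟩
  have h1 : w ∈ ((X ⊔ Y : Subgroup G) : Set G) := hw
  rw [coe_mul_of_left_le_normalizer_right X Y hn] at h1
  obtain ⟨x, hx, y, hy, rfl⟩ := h1
  refine mul_mem (mem_sup_left hx) (mem_sup_right ⟨hy, ?_⟩)
  have h2 : x⁻¹ * (x * y) ∈ Z := mul_mem (inv_mem (hX hx)) hz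
  rwa [inv_mul_cancel_left] at h2

theorem comm_eq_bot {X Y : Subgroup G} (h1 : X ≤ normalizer (Y : Set G))
    (h2 : Y ≤ normalizer (X : Set G)) (h : X ⊓ Y ≤ ⊥) : ⁅X, Y⁆ = ⊥ := by
  rw [eq_bot_iff]
  refine le_trans (le_inf ?_ ?_) h
  · exact le_normalizer_iff_commutator_le_left.mp h2
  · exact le_normalizer_iff_commutator_le_right.mp h1

/-! ### The configuration -/

/-- See the header. -/
structure Conf (A B K L SA SB SD SE : Subgroup G) (s t : ℕ) : Prop where
  aA : AS A K SA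
  aB : AS B L SB
  aD : AS (A ⊓ B) K SD
  aE : AS (A ⊓ B) L SE
  cA : K.relIndex SA = t
  cB : L.relIndex SB = t
  cD : K.relIndex SD = s
  cE : L.relIndex SE = s
  uA : K.relIndex A ≤ 2 * t
  uB : L.relIndex B ≤ 2 * t
  uD : K.relIndex (A ⊓ B) ≤ 2 * s
  uE : L.relIndex (A ⊓ B) ≤ 2 * s
  st : 2 * s < t
  ts : 2 * t < s * s
  s1 : 2 < s
  maxA : ∀ M, A ⊓ B ≤ M → M ≤ A → M = A ⊓ B ∨ M = A
  maxB : ∀ M, A ⊓ B ≤ M → M ≤ B → M = A ⊓ B ∨ M = B
  conj : ∃ h : G, cj h A = B
  fit : ∀ X ≤ A ⊓ B, A ⊓ B ≤ normalizer (X : Set G) → ⁅X, X⁆ = ⊥ → X = ⊥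
  cf : ∀ X ≤ A ⊓ B, A ≤ normalizer (X : Set G) → B ≤ normalizer (X : Set G) → X = ⊥
  K1 : K ≠ ⊥

namespace Conf

variable [Finite G] {A B K L SA SB SD SE : Subgroup G} {s t : ℕ}

theorem relIndex_ne (H X : Subgroup G) : H.relIndex X ≠ 0 :=
  index_ne_zero_of_finite (H := H.subgroupOf X)

theorem card_mul (H X : Subgroup G) : H.relIndex X * Nat.card (H ⊓ X : Subgroup G) = Nat.card X := by
  have h1 := (H.subgroupOf X).index_mul_card
  rw [← relIndex] at h1
  rw [← h1, ← subgroupOf_map_subtype, card_map_of_injective (subtype_injective X)]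

variable (h : Conf A B K L SA SB SD SE s t)
include h

theorem KD : K ≤ A ⊓ B := h.aD.JS.trans h.aD.SW

theorem LD : L ≤ A ⊓ B := h.aE.JS.trans h.aE.SW

theorem card_eq : Nat.card A = Nat.card B := by
  obtain ⟨x, hx⟩ := h.conj
  rw [← hx, card_cj]

theorem not_LK : ¬ L ≤ K := by
  intro hLK
  have h1 : t ≤ K.relIndex A := by
    rw [← h.cA]; exact relIndex_le_of_le_right h.aA.SW (relIndex_ne _ _)
  have h2 := card_mul K A
  have h3 := card_mul L B
  rw [inf_eq_left.mpr (h.KD.trans inf_le_left)] at h2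
  rw [inf_eq_left.mpr (h.LD.trans inf_le_right), ← h.card_eq, ← h2] at h3
  have h4 := card_mul L K
  rw [inf_eq_left.mpr hLK] at h4
  have h5 : L.relIndex K ≤ 2 := by
    by_contra hcon
    push Not at hcon
    have h6 : 3 ≤ L.relIndex K := hcon
    have h7 : L.relIndex B = K.relIndex A * L.relIndex K := by
      have : L.relIndex B * Nat.card L = (K.relIndex A * L.relIndex K) * Nat.card L := by
        rw [h3, ← h4]; ring
      exact Nat.eq_of_mul_eq_mul_right Nat.card_pos this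
    have h8 := h.uB
    rw [h7] at h8
    have h9 : t * 3 ≤ 2 * t := (Nat.mul_le_mul h1 h6).trans h8
    have := h.st
    omega
  have hn : SE ≤ normalizer (K : Set G) := (h.aE.SW.trans inf_le_left).trans h.aA.nJ
  rcases h.aE.key' h.KD hn with h6 | h6
  · have h7 : K = L := le_antisymm h6 hLK
    exact h.K1 (h.cf K h.KD h.aA.nJ (h7 ▸ h.aB.nJ))
  · rw [sup_eq_left.mpr hLK] at h6
    have h7 : L.relIndex SE ≤ L.relIndex K := relIndex_le_of_le_right h6 (relIndex_ne _ _)
    rw [h.cE] at h7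
    have := h.s1
    omega

/-- **The main step.** -/
theorem inf_eq_bot (hcore : ∀ X ≤ L, A ≤ normalizer (X : Set G) → X = ⊥) : K ⊓ L = ⊥ := by
  classical
  have hKD := h.KD
  have hLD := h.LD
  -- the minimal subgroup
  obtain ⟨N, hN⟩ := (Set.toFinite {X : Subgroup G | X ≠ ⊥ ∧ X ≤ K ∧
    A ≤ normalizer (X : Set G)}).exists_minimal ⟨K, h.K1, le_rfl, h.aA.nJ⟩
  obtain ⟨⟨hN1, hNK, hNn⟩, hmin0⟩ := hN
  have hmin : ∀ X : Subgroup G, X ≤ N → A ≤ normalizer (X : Set G) → X = ⊥ ∨ X = N := by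
    intro X hX hXn
    by_cases h1 : X = ⊥
    · exact Or.inl h1
    · exact Or.inr (le_antisymm hX (hmin0 ⟨h1, hX.trans hNK, hXn⟩ hX))
  clear hmin0
  have hND : N ≤ A ⊓ B := hNK.trans hKD
  have hDNN : A ⊓ B ≤ normalizer (N : Set G) := inf_le_left.trans hNn
  have hDL : A ⊓ B ≤ normalizer (L : Set G) := inf_le_right.trans h.aB.nJ
  have hDK : A ⊓ B ≤ normalizer (K : Set G) := inf_le_left.trans h.aA.nJ
  have hperf : ⁅N, N⁆ = N := by
    rcases hmin ⁅N, N⁆ (commutator_le_self N) (norm_commutator hNn) with h1 | h1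
    · exact absurd (h.fit N hND hDNN h1) hN1
    · exact h1
  have hNL : ¬ N ≤ L := fun h1 => hN1 (hcore N h1 hNn)
  have hSEN : SE ≤ N ⊔ L := by
    rcases h.aE.key' hND (h.aE.SW.trans hDNN) with h1 | h1
    · exact absurd h1 hNL
    · exact h1
  have hNSE : N ≤ SE := h.aE.le_of_perfect hND hperf
  have hSE : N ⊔ L = SE := le_antisymm (sup_le hNSE h.aE.JS) hSEN
  set N0 : Subgroup G := N ⊓ L with hN0
  have hcN : s * Nat.card N0 = Nat.card N := by
    have h1 := card_mul L N
    have h2 : L.relIndex N = s := by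
      rw [← relIndex_sup_of_norm (hND.trans hDL), hSE, h.cE]
    rw [h2, inf_comm] at h1
    exact h1
  have hN0N : N0 ≤ N := inf_le_left
  have hDN0 : A ⊓ B ≤ normalizer (N0 : Set G) := norm_inf hDNN hDL
  have hNN0 : N ≤ normalizer (N0 : Set G) := hND.trans hDN0
  have hsimp : ∀ Y ≤ N, N ≤ normalizer (Y : Set G) → Y ≤ N0 ∨ N ≤ Y ⊔ N0 := by
    intro Y hY hYn
    have h1 : SE ≤ normalizer ((Y ⊔ L : Subgroup G) : Set G) := by
      rw [← hSE]
      exact sup_le (norm_sup hYn (hND.trans hDL)) (le_sup_right.trans le_normalizer)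
    rcases h.aE.key Y (hY.trans hND) h1 with h2 | h2
    · exact Or.inl (le_inf hY h2)
    · right
      have h3 : N ≤ (Y ⊔ L) ⊓ N := le_inf (hNSE.trans h2) le_rfl
      refine h3.trans ((ded hY (hY.trans (hND.trans hDL))).trans ?_)
      rw [hN0, inf_comm]
  -- `C_K(N)` and more
  have hCL : ∀ C ≤ A ⊓ B, A ≤ normalizer (C : Set G) → C ≤ centralizer (N : Set G) → C = ⊥ := by
    intro C hC hCn hCN
    refine hcore C ?_ hCn
    refine h.aE.le_of_comm hC ?_
    rw [← hSE]
    refine comm_sup_right (hND.trans hDL) le_normalizer ?_ ?_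
    · rw [commutator_eq_bot_iff_le_centralizer.mpr hCN]; exact bot_le
    · exact le_normalizer_iff_commutator_le_right.mp (hC.trans hDL)
  have hM0 : A ⊓ normalizer (N0 : Set G) = A ⊓ B ∨ A ⊓ normalizer (N0 : Set G) = A :=
    h.maxA _ (le_inf inf_le_left hDN0) inf_le_left
  rcases hM0 with hM | hM
  swap
  · -- first case: `N` is simple
    have h0 : N0 = ⊥ := hcore N0 inf_le_right (inf_eq_left.mp hM)
    have h1 : K ⊓ centralizer (N : Set G) = ⊥ :=
      hCL _ (inf_le_left.trans hKD) (norm_inf h.aA.nJ (norm_centralizer hNn)) inf_le_right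
    rw [eq_bot_iff, ← h1]
    refine le_inf inf_le_left ?_
    rw [← commutator_eq_bot_iff_le_centralizer]
    refine comm_eq_bot (inf_le_left.trans (hKD.trans hDNN)) (hND.trans (norm_inf hDK hDL)) ?_
    rw [← h0]
    exact le_inf inf_le_right (inf_le_left.trans inf_le_right)
  -- second case
  exfalso
  have hAcj : ∀ x ∈ A, cj x N = N := fun x hx => cj_eq_of_mem (hNn hx)
  have hBof : ∀ x ∈ A, cj x N0 = N0 → x ∈ B := by
    intro x hx h1
    have h2 : x ∈ A ⊓ normalizer (N0 : Set G) := ⟨hx, mem_norm_iff.mpr h1⟩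
    rw [hM] at h2
    exact h2.2
  have hcjN : ∀ x ∈ A, cj x N0 ≤ N := by
    intro x hx
    rw [← hAcj x hx]; exact cj_mono hN0N
  have hcjn : ∀ x ∈ A, N ≤ normalizer ((cj x N0 : Subgroup G) : Set G) := by
    intro x hx
    have := norm_cj (x := x) hNN0
    rwa [hAcj x hx] at this
  have hsimpx : ∀ x ∈ A, ∀ Y ≤ N, N ≤ normalizer (Y : Set G) → Y ≤ cj x N0 ∨ N ≤ Y ⊔ cj x N0 := by
    intro x hx Y hY hYn
    have h1 : cj x⁻¹ Y ≤ N := by
      rw [← hAcj x⁻¹ (inv_mem hx)]; exact cj_mono hY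
    have h2 : N ≤ normalizer ((cj x⁻¹ Y : Subgroup G) : Set G) := by
      have := norm_cj (x := x⁻¹) hYn
      rwa [hAcj x⁻¹ (inv_mem hx)] at this
    rcases hsimp _ h1 h2 with h3 | h3
    · exact Or.inl (le_cj_iff.mpr h3)
    · right
      have h4 := cj_mono (x := x) h3
      rwa [hAcj x hx, cj_sup, cj_cj, mul_inv_cancel, cj_one] at h4
  have hcore0 : coreIn A N0 = ⊥ :=
    hcore _ ((coreIn_le A N0).trans inf_le_right) (norm_coreIn A N0)
  -- the complement
  have hcov : ∀ x ∈ A, x ∉ B → N ≤ cj x N0 ⊔ N0 := by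
    intro x hx hxB
    rcases hsimp _ (hcjN x hx) (hcjn x hx) with h1 | h1
    · exfalso
      exact hxB (hBof x hx (eq_of_le_of_card_ge h1 (card_cj x N0).ge))
    · exact h1
  set X0 : Subgroup G := N ⊓ ⨅ x : {x : G // x ∈ A ∧ x ∉ B}, cj (x : G) N0 with hX0
  have hNX0 : N ≤ X0 ⊔ N0 := by
    refine iInf_step (M := N) (J := N0) hNN0 (fun x : {x : G // x ∈ A ∧ x ∉ B} => cj (x : G) N0)
      (fun x => hcjN x x.2.1) (fun x => hcjn x x.2.1) ?_ le_sup_left (fun x => hcov x x.2.1 x.2.2)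
    rw [hperf]; exact le_sup_left
  have hX0N0 : X0 ⊓ N0 ≤ ⊥ := by
    rw [← hcore0]
    rintro y ⟨⟨_, hy1⟩, hy2⟩
    rw [mem_coreIn]
    intro x hx
    by_cases hxB : x ∈ B
    · rw [cj_eq_of_mem (hDN0 ⟨hx, hxB⟩)]; exact hy2
    · exact (mem_iInf.mp hy1) ⟨x, hx, hxB⟩
  have hDX0 : A ⊓ B ≤ normalizer (X0 : Set G) := by
    refine norm_inf hDNN ?_
    intro g hg
    rw [mem_norm_iff]
    ext y
    rw [mem_cj]
    simp only [mem_iInf, Subtype.forall, mem_cj]
    constructor
    · intro h1 x hx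
      have h2 := h1 (g⁻¹ * x) ⟨mul_mem (inv_mem hg.1) hx.1, fun h3 => hx.2 (by
        have := B.mul_mem hg.2 h3
        rwa [mul_inv_cancel_left] at this)⟩
      have e : (g⁻¹ * x)⁻¹ * (g⁻¹ * y * g) * (g⁻¹ * x) = x⁻¹ * y * x := by group
      rwa [e] at h2
    · intro h1 x hx
      have h2 := h1 (g * x) ⟨mul_mem hg.1 hx.1, fun h3 => hx.2 (by
        have := B.mul_mem (B.inv_mem hg.2) h3
        rwa [inv_mul_cancel_left] at this)⟩
      have e : (g * x)⁻¹ * y * (g * x) = x⁻¹ * (g⁻¹ * y * g) * x := by group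
      rwa [e] at h2
  have hX0N : X0 ≤ N := inf_le_left
  have hX0L : ⁅X0, L⁆ = ⊥ := by
    refine comm_eq_bot (hX0N.trans (hND.trans hDL)) (hLD.trans hDX0) ?_
    refine le_trans ?_ hX0N0
    exact le_inf inf_le_left (le_inf (inf_le_left.trans hX0N) inf_le_right)
  -- the centralizer of `N`
  have hAC : A ⊓ centralizer (N : Set G) = ⊥ := by
    have hCn : A ≤ normalizer ((A ⊓ centralizer (N : Set G) : Subgroup G) : Set G) :=
      norm_inf le_normalizer (norm_centralizer hNn)
    have hCB : A ⊓ centralizer (N : Set G) ≤ A ⊓ B := by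
      rintro x ⟨hx, hxc⟩
      refine ⟨hx, hBof x hx ?_⟩
      apply cj_eq_of_mem
      rw [mem_normalizer_iff]
      intro y
      have hc := mem_centralizer_iff.mp hxc
      constructor
      · intro hy
        have : x * y * x⁻¹ = y := by rw [← hc y (hN0N hy)]; group
        rwa [this]
      · intro hy
        have h1 := hc _ (hN0N hy)
        have e : x * y * x⁻¹ * x = x * y := by group
        have e2 : y = x * y * x⁻¹ := by
          have : x * y = x * (x * y * x⁻¹) := by rw [← h1]; group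
          exact mul_left_cancel this
        rwa [e2]
    exact hCL _ hCB hCn inf_le_right
  obtain ⟨g, hg⟩ := h.conj
  set N' : Subgroup G := cj g N with hN'
  have hN'n : B ≤ normalizer (N' : Set G) := by
    rw [← hg]; exact norm_cj hNn
  have hcN' : Nat.card N' = Nat.card N := card_cj g N
  have hN'B : N' ≤ B := by
    rw [← hg]; exact cj_mono (hND.trans inf_le_left)
  have hperf' : ⁅N', N'⁆ = N' := by
    rw [hN', cj, ← map_commutator, hperf]
  -- order of `N`
  have hs : s ≤ Nat.card N0 := by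
    have hAB : ¬ A ≤ B := by
      intro h1
      have h2 : t ≤ K.relIndex A := by
        rw [← h.cA]; exact relIndex_le_of_le_right h.aA.SW (relIndex_ne _ _)
      have h3 := h.uD
      rw [inf_eq_left.mpr h1] at h3
      have := h.st
      omega
    obtain ⟨x, hx, hxB⟩ := SetLike.not_le_iff_exists.mp hAB
    have h1 : (cj x N0).relIndex N = s := by
      have h2 := card_mul (cj x N0) N
      rw [inf_eq_left.mpr (hcjN x hx), card_cj, ← hcN] at h2
      exact Nat.eq_of_mul_eq_mul_right Nat.card_pos h2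
    have h2 : (cj x N0).relIndex N ≤ (cj x N0).relIndex (N0 ⊔ cj x N0) :=
      relIndex_le_of_le_right (by rw [sup_comm]; exact hcov x hx hxB) (relIndex_ne _ _)
    rw [relIndex_sup_of_norm (hN0N.trans (hcjn x hx)), h1] at h2
    exact h2.trans (Nat.le_of_dvd Nat.card_pos (relIndex_dvd_card _ _))
  have hN'L : N' ≤ L := by
    have hXn : A ≤ normalizer ((cj g⁻¹ (N' ⊓ L) : Subgroup G) : Set G) := by
      have h1 : B ≤ normalizer ((N' ⊓ L : Subgroup G) : Set G) := norm_inf hN'n h.aB.nJ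
      have h2 := norm_cj (x := g⁻¹) h1
      rwa [← hg, cj_cj, inv_mul_cancel, cj_one] at h2
    have hXN : cj g⁻¹ (N' ⊓ L) ≤ N := by
      have h1 := cj_mono (x := g⁻¹) (inf_le_left : N' ⊓ L ≤ N')
      rwa [hN', cj_cj, inv_mul_cancel, cj_one] at h1
    rcases hmin _ hXN hXn with h1 | h1
    · exfalso
      have h2 : N' ⊓ L = ⊥ := by
        have h3 := congrArg (cj g) h1
        rw [cj_cj, mul_inv_cancel, cj_one] at h3
        rw [h3]; exact map_bot _
      have h3 : L.relIndex N' = Nat.card N' := by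
        have := card_mul L N'
        rw [inf_comm, h2, card_bot, mul_one] at this
        exact this
      have h4 : L.relIndex N' ≤ L.relIndex B := relIndex_le_of_le_right hN'B (relIndex_ne _ _)
      rw [h3, hcN', ← hcN] at h4
      have h5 : s * s ≤ s * Nat.card N0 := Nat.mul_le_mul_left s hs
      have h6 := h.uB
      have h7 := h.ts
      omega
    · have h2 := congrArg (cj g) h1
      rw [cj_cj, mul_inv_cancel, cj_one] at h2
      rw [← hN'] at h2
      exact inf_eq_left.mp h2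
  have hN'D : N' ≤ A ⊓ B := hN'L.trans hLD
  -- complete reducibility
  have hCR : ∀ Y ≤ N, N ≤ normalizer (Y : Set G) → N ≤ Y ⊔ (N ⊓ centralizer (Y : Set G)) := by
    intro Y hY hYn
    set E : Subgroup G := N ⊓ ⨅ x : {x : G // x ∈ A ∧ ¬ Y ≤ cj x N0}, cj (x : G) N0 with hE
    have h1 : N ≤ E ⊔ Y := by
      refine iInf_step (M := N) (J := Y) hYn
        (fun x : {x : G // x ∈ A ∧ ¬ Y ≤ cj x N0} => cj (x : G) N0)
        (fun x => hcjN x x.2.1) (fun x => hcjn x x.2.1) ?_ le_sup_left ?_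
      · rw [hperf]; exact le_sup_left
      · intro x
        rcases hsimpx x x.2.1 Y hY hYn with h2 | h2
        · exact absurd h2 x.2.2
        · rwa [sup_comm] at h2
    have hEn : N ≤ normalizer (E : Set G) :=
      norm_inf le_normalizer (norm_iInf fun x => hcjn x x.2.1)
    have h2 : ⁅E, Y⁆ = ⊥ := by
      refine comm_eq_bot (inf_le_left.trans hYn) (hY.trans hEn) ?_
      rw [← hcore0]
      rintro y ⟨⟨_, hy1⟩, hy2⟩
      rw [mem_coreIn]
      intro x hx
      by_cases hxY : Y ≤ cj x N0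
      · exact hxY hy2
      · exact (mem_iInf.mp hy1) ⟨x, hx, hxY⟩
    rw [commutator_eq_bot_iff_le_centralizer] at h2
    refine h1.trans (sup_le ?_ le_sup_left)
    exact (le_inf inf_le_left h2).trans le_sup_right
  have hCR' : ∀ Y ≤ N', N' ≤ normalizer (Y : Set G) →
      N' ≤ Y ⊔ (N' ⊓ centralizer (Y : Set G)) := by
    intro Y hY hYn
    have h1 : cj g⁻¹ Y ≤ N := by
      have h1 := cj_mono (x := g⁻¹) hY
      rwa [hN', cj_cj, inv_mul_cancel, cj_one] at h1
    have h2 : N ≤ normalizer ((cj g⁻¹ Y : Subgroup G) : Set G) := by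
      have := norm_cj (x := g⁻¹) hYn
      rwa [hN', cj_cj, inv_mul_cancel, cj_one] at this
    have h3 := cj_mono (x := g) (hCR _ h1 h2)
    rwa [cj_sup, cj_inf, cj_centralizer, cj_cj, mul_inv_cancel, cj_one, ← hN'] at h3
  -- the intersection with `K`
  have hDN' : A ⊓ B ≤ normalizer (N' : Set G) := inf_le_right.trans hN'n
  set Q : Subgroup G := N' ⊓ K with hQ
  have hDQ : A ⊓ B ≤ normalizer (Q : Set G) := norm_inf hDN' hDK
  have hQN : Q ≤ N := by
    set Z : Subgroup G := Q ⊓ N with hZ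
    have hDZ : A ⊓ B ≤ normalizer (Z : Set G) := norm_inf hDQ hDNN
    have hZN' : Z ≤ N' := inf_le_left.trans inf_le_left
    have h1 := hCR' Z hZN' (hN'D.trans hDZ)
    set P : Subgroup G := Q ⊓ centralizer (Z : Set G) with hP
    have hDP : A ⊓ B ≤ normalizer (P : Set G) := norm_inf hDQ (norm_centralizer hDZ)
    have hPD : P ≤ A ⊓ B := inf_le_left.trans (inf_le_right.trans hKD)
    have hPN0 : P ⊓ N = ⊥ := by
      refine h.fit _ (inf_le_left.trans hPD) (norm_inf hDP hDNN) ?_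
      rw [commutator_eq_bot_iff_le_centralizer]
      have h2 : P ⊓ N ≤ Z := le_inf (inf_le_left.trans inf_le_left) inf_le_right
      exact (inf_le_left.trans inf_le_right : P ⊓ N ≤ centralizer (Z : Set G)).trans
        (centralizer_le h2)
    have hPN : P = ⊥ := by
      rw [eq_bot_iff, ← hAC]
      refine le_inf (hPD.trans inf_le_left) ?_
      rw [← commutator_eq_bot_iff_le_centralizer]
      exact comm_eq_bot (hPD.trans hDNN) (hND.trans hDP) hPN0.le
    have hZc : Z ≤ normalizer ((N' ⊓ centralizer (Z : Set G) : Subgroup G) : Set G) := by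
      refine norm_inf (hZN'.trans le_normalizer) ?_
      exact (norm_centralizer le_normalizer)
    have h2 : Q ≤ Z ⊔ P := by
      have h3 : Q ≤ (Z ⊔ (N' ⊓ centralizer (Z : Set G))) ⊓ Q :=
        le_inf ((inf_le_left : Q ≤ N').trans h1) le_rfl
      refine h3.trans ((ded inf_le_left hZc).trans ?_)
      refine sup_le le_sup_left (le_trans ?_ le_sup_right)
      exact le_inf inf_le_right (inf_le_left.trans inf_le_right)
    rw [hPN, sup_bot_eq] at h2
    exact h2.trans inf_le_right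
  have hQN0 : Q ≤ N0 := le_inf hQN (inf_le_left.trans hN'L)
  have hcQ : Nat.card N0 ≤ Nat.card Q := by
    have h1 := card_mul K N'
    rw [inf_comm, ← hQ, hcN', ← hcN] at h1
    have h2 : K.relIndex N' ≤ K.relIndex SD :=
      relIndex_le_of_le_right (h.aD.le_of_perfect hN'D hperf') (relIndex_ne _ _)
    rw [h.cD] at h2
    have h3 : s * Nat.card N0 ≤ s * Nat.card Q := by
      rw [← h1]; exact Nat.mul_le_mul_right _ h2
    exact Nat.le_of_mul_le_mul_left h3 (by have := h.s1; omega)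
  have hQe : Q = N0 := eq_of_le_of_card_ge hQN0 hcQ
  have h1 := hCR' N0 (hQe ▸ inf_le_left) (hN'D.trans hDN0)
  have h2 : N' ⊓ centralizer (N0 : Set G) = ⊥ := by
    rw [eq_bot_iff, ← hAC]
    refine le_inf (inf_le_left.trans (hN'D.trans inf_le_left)) ?_
    have h3 : N' ⊓ centralizer (N0 : Set G) ≤ centralizer ((X0 ⊔ N0 : Subgroup G) : Set G) := by
      rw [← commutator_eq_bot_iff_le_centralizer, commutator_comm,
        commutator_eq_bot_iff_le_centralizer]
      refine sup_le ?_ ?_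
      · rw [← commutator_eq_bot_iff_le_centralizer, eq_bot_iff, ← hX0L]
        exact commutator_mono le_rfl (inf_le_left.trans hN'L)
      · rw [← commutator_eq_bot_iff_le_centralizer, commutator_comm,
          commutator_eq_bot_iff_le_centralizer]
        exact inf_le_right
    exact h3.trans (centralizer_le hNX0)
  rw [h2, sup_bot_eq] at h1
  have h3 := card_le_of_le h1
  rw [hcN', ← hcN] at h3
  have h4 : 0 < Nat.card N0 := Nat.card_pos
  have h5 := h.s1
  nlinarith

end Conf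

end Cfsg.Agent.H508.AltConf
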