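import Mathlib
import Cfsg.Agent.H508.AltOrbit
import Cfsg.Agent.H508.AltPair
import Cfsg.Agent.H429.FittingFree

/-!
# Primitive groups with an alternating suborbit on which the point stabiliser is unfaithful
-/

set_option autoImplicit false
set_option linter.unusedSectionVars false

namespace Cfsg.Agent.H508.AltMain

open Subgroup MulAction Cfsg
open Cfsg.Agent.H508.AltSec Cfsg.Agent.H508.AltConf Cfsg.Agent.H508.AltPair
open Cfsg.Agent.H508.AltOrbit
open Cfsg.Agent.H429.Suborbit

variable {G Ω : Type*} [Group G] [MulAction G Ω]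

/-- The suborbit. -/
abbrev Orb (G : Type*) {Ω : Type*} [Group G] [MulAction G Ω] (a b : Ω) : Set Ω :=
  orbit (stabilizer G a) b

theorem inv_orb (a b : Ω) : Inv (stabilizer G a) (Orb G a b) := by
  rintro w hw _ ⟨x, rfl⟩
  exact ⟨⟨w, hw⟩ * x, mul_smul _ _ _⟩

theorem inv_sdiff {W : Subgroup G} {s : Set Ω} (h : Inv W s) (b : Ω) :
    Inv (W ⊓ stabilizer G b) (s \ {b}) := by
  rintro w hw c ⟨hc, hcb⟩
  obtain ⟨hw1, hw2⟩ := mem_inf.mp hw
  refine ⟨h w hw1 c hc, ?_⟩
  intro h1
  apply hcb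
  have h2 : w • c = w • b := by
    rw [mem_stabilizer_iff.mp hw2]; exact h1
  exact smul_left_cancel w h2

theorem mem_K_iff {a b : Ω} {w : G} (hw : w ∈ stabilizer G a) :
    w ∈ (K a b : Subgroup G) ↔ ∀ c ∈ Orb G a b, w • c = c := by
  rw [mem_K]
  exact ⟨fun h => h.2, fun h => ⟨hw, h⟩⟩

theorem mem_K_iff' {a b : Ω} {w : G} (hw : w ∈ stabilizer G a ⊓ stabilizer G b) :
    w ∈ (K a b : Subgroup G) ↔ ∀ c ∈ Orb G a b \ {b}, w • c = c := by
  obtain ⟨hw1, hw2⟩ := mem_inf.mp hw
  rw [mem_K_iff hw1]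
  constructor
  · intro h c hc
    exact h c hc.1
  · intro h c hc
    by_cases hcb : c = b
    · rw [hcb]; exact hw2
    · exact h c ⟨hc, hcb⟩

theorem K_le_inf (a b : Ω) : (K a b : Subgroup G) ≤ stabilizer G a ⊓ stabilizer G b :=
  le_inf (K_le_left a b) (K_le_right a b)

theorem rho_eq (a b : Ω) : rho (stabilizer G a) (Orb G a b) (inv_orb a b) =
    toPermHom (stabilizer G a) (orbit (stabilizer G a) b) := by
  ext w c
  rfl

section fin

variable [Finite Ω]

noncomputable local instance instFt (s : Set Ω) : Fintype s := Fintype.ofFinite s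
noncomputable local instance instDe (s : Set Ω) : DecidableEq s := Classical.decEq s

theorem card_ft (s : Set Ω) : Fintype.card s = Nat.card s := Nat.card_eq_fintype_card.symm

theorem card_sdiff {s : Set Ω} {b : Ω} (hb : b ∈ s) :
    Fintype.card (s \ {b} : Set Ω) = Nat.card s - 1 := by
  rw [card_ft, Nat.card_coe_set_eq, Set.ncard_sdiff_singleton_of_mem hb, Nat.card_coe_set_eq]

theorem as_left {a b : Ω} (h : AltOn (stabilizer G a) (Orb G a b))
    (h6 : 6 ≤ Nat.card (Orb G a b)) :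
    ∃ S : Subgroup G, AS (stabilizer G a) (K a b) S ∧
      2 * (K a b).relIndex S = (Nat.card (Orb G a b)).factorial ∧
      (K a b).relIndex (stabilizer G a) ≤ (Nat.card (Orb G a b)).factorial := by
  have := h.exists_as (inv_orb a b) (by rw [card_ft]; omega) (K_le_left a b)
    (fun w hw => mem_K_iff hw)
  rwa [card_ft] at this

theorem as_inf {a b : Ω} (h : AltOn (stabilizer G a) (Orb G a b))
    (h6 : 6 ≤ Nat.card (Orb G a b)) :
    ∃ S : Subgroup G, AS (stabilizer G a ⊓ stabilizer G b) (K a b) S ∧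
      2 * (K a b).relIndex S = (Nat.card (Orb G a b) - 1).factorial ∧
      (K a b).relIndex (stabilizer G a ⊓ stabilizer G b) ≤
        (Nat.card (Orb G a b) - 1).factorial := by
  have hb : b ∈ Orb G a b := mem_orbit_self b
  have := (h.stab hb).exists_as (inv_sdiff (inv_orb a b) b) (by rw [card_sdiff hb]; omega)
    (K_le_inf a b) (fun w hw => mem_K_iff' hw)
  rwa [card_sdiff hb] at this

theorem relIndex_inf_le (a b : Ω) :
    (K a b).relIndex (stabilizer G a ⊓ stabilizer G b) ≤ (Nat.card (Orb G a b) - 1).factorial := by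
  have hb : b ∈ Orb G a b := mem_orbit_self b
  have := relIndex_le (inv_sdiff (inv_orb (G := G) a b) b) (fun w hw => mem_K_iff' hw)
  rwa [card_sdiff hb] at this

/-- A perfect subgroup of a solvable group is trivial. -/
theorem eq_bot_of_perfect {X : Type*} [Group X] {F P : Subgroup X} [Group.IsSolvable F] (hP : P ≤ F)
    (h : P ≤ ⁅P, P⁆) : P = ⊥ := by
  have h1 : Group.IsSolvable P :=
    Group.isSolvable_of_isSolvable_injective (inclusion_injective hP)
  by_contra hne
  have hnt : Nontrivial P := (nontrivial_iff_ne_bot P).mpr hne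
  have h2 := Group.IsSolvable.commutator_lt_top_of_nontrivial P
  apply h2.ne
  rw [eq_top_iff]
  intro x _
  have h3 : (x : X) ∈ ⁅P, P⁆ := h x.2
  rw [← map_subtype_commutator] at h3
  obtain ⟨y, hy, hyx⟩ := h3
  have : y = x := Subtype.ext hyx
  rwa [← this]

theorem fitting_ind [Finite G] {a b : Ω} (h : AltOn (stabilizer G a) (Orb G a b))
    (h6 : 6 ≤ Nat.card (Orb G a b)) : fittingSubgroup (Ind G a b) = ⊥ := by
  obtain ⟨S, hS, -, -⟩ := as_inf h h6
  set A := stabilizer G a with hA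
  set B := stabilizer G b with hB
  set φ := toPermHom A (orbit A b) with hφ
  set F := (fittingSubgroup (Ind G a b)).map (Ind G a b).subtype with hF
  have hnil := Cfsg.Agent.Lib.Cores.fittingSubgroup_isNilpotent (G := Ind G a b)
  have hsolv : Group.IsSolvable F := by
    have e := (fittingSubgroup (Ind G a b)).equivMapOfInjective (Ind G a b).subtype
      (subtype_injective _)
    exact Group.isSolvable_of_surjective (f := e.toMonoidHom) e.surjective
  have hFI : F ≤ Ind G a b := by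
    rintro _ ⟨x, -, rfl⟩; exact x.2
  have hFn : Ind G a b ≤ normalizer (F : Set (Equiv.Perm (orbit A b))) := by
    rw [← normal_subgroupOf_iff_le_normalizer hFI]
    have h1 : F.subgroupOf (Ind G a b) = fittingSubgroup (Ind G a b) := by
      rw [hF, subgroupOf, comap_map_eq_self_of_injective (subtype_injective _)]
    rw [h1]
    infer_instance
  -- the preimage
  set Y : Subgroup G := (F.comap φ ⊓ B.subgroupOf A).map A.subtype with hY
  have hYD : Y ≤ A ⊓ B := by
    rintro _ ⟨x, ⟨-, hx⟩, rfl⟩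
    exact ⟨x.2, hx⟩
  have hmemY : ∀ x (hx : x ∈ A), x ∈ B → (x ∈ Y ↔ φ ⟨x, hx⟩ ∈ F) := by
    intro x hx hxB
    constructor
    · rintro ⟨y, ⟨hy, -⟩, rfl⟩
      exact hy
    · intro hxF
      exact ⟨⟨x, hx⟩, ⟨hxF, hxB⟩, rfl⟩
  have hYn : A ⊓ B ≤ normalizer (Y : Set G) := by
    refine le_normalizer_of_conj ?_
    intro g hg x hx
    obtain ⟨hg1, hg2⟩ := mem_inf.mp hg
    obtain ⟨hx1, hx2⟩ := mem_inf.mp (hYD hx)
    have h1 := (hmemY x hx1 hx2).mp hx
    rw [hmemY _ (A.mul_mem (A.mul_mem hg1 hx1) (A.inv_mem hg1))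
      (B.mul_mem (B.mul_mem hg2 hx2) (B.inv_mem hg2))]
    have h2 : φ ⟨g, hg1⟩ ∈ normalizer (F : Set (Equiv.Perm (orbit A b))) :=
      hFn (mem_map_of_mem φ hg2)
    have h3 := (mem_normalizer_iff.mp h2 _).mp h1
    rw [← map_mul, ← map_inv, ← map_mul] at h3
    exact h3
  have hkφ : ∀ x (hx : x ∈ A), x ∈ (K a b : Subgroup G) ↔ φ ⟨x, hx⟩ = 1 := by
    intro x hx
    rw [← ker_toPermHom]
    constructor
    · rintro ⟨y, hy, rfl⟩; exact hy
    · intro h1; exact ⟨⟨x, hx⟩, h1, rfl⟩
  rcases hS.key' hYD (hS.SW.trans hYn) with h1 | h1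
  · rw [eq_bot_iff]
    intro x hx
    obtain ⟨⟨y, hyA⟩, hyB, hyx⟩ := x.2
    have h2 : y ∈ Y := by
      rw [hmemY y hyA hyB, hyx]
      exact ⟨x, hx, rfl⟩
    have h3 := (hkφ y hyA).mp (h1 h2)
    rw [mem_bot]
    apply Subtype.ext
    rw [← hyx]
    exact h3
  · exfalso
    have hKY : (K a b : Subgroup G) ≤ Y := by
      intro x hx
      rw [hmemY x (K_le_left a b hx) (K_le_right a b hx), (hkφ x _).mp hx]
      exact one_mem _
    rw [sup_eq_left.mpr hKY] at h1
    set P := (S.subgroupOf A).map φ with hP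
    have hSA : S ≤ A := hS.SW.trans inf_le_left
    have hPF : P ≤ F := by
      rintro _ ⟨⟨x, hxA⟩, hxS, rfl⟩
      have hxS' : x ∈ S := hxS
      exact (hmemY x hxA (hS.SW hxS').2).mp (h1 hxS')
    have hPP : P ≤ ⁅P, P⁆ := by
      rintro _ ⟨⟨x, hxA⟩, hxS, rfl⟩
      have hxS' : x ∈ S := hxS
      have h2 := hS.perf hxS'
      have h3 : ⁅S, S⁆ ≤ normalizer ((K a b : Subgroup G) : Set G) :=
        (commutator_le_self S).trans (hS.SW.trans hS.nJ)
      have h4 : x ∈ ((⁅S, S⁆ ⊔ K a b : Subgroup G) : Set G) := h2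
      rw [coe_mul_of_left_le_normalizer_right _ _ h3] at h4
      obtain ⟨y, hy, k, hk, hyk⟩ := h4
      have hyA : y ∈ A := hSA (commutator_le_self S hy)
      have hkA : k ∈ A := K_le_left a b hk
      have h5 : φ ⟨x, hxA⟩ = φ ⟨y, hyA⟩ := by
        have h6 : (⟨x, hxA⟩ : A) = ⟨y, hyA⟩ * ⟨k, hkA⟩ := Subtype.ext hyk.symm
        rw [h6, map_mul, (hkφ k hkA).mp hk, mul_one]
      rw [h5, hP, ← map_commutator]
      refine mem_map_of_mem φ ?_
      have h7 : ⁅S, S⁆ = ⁅S.subgroupOf A, S.subgroupOf A⁆.map A.subtype := by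
        rw [map_commutator, subgroupOf_map_subtype, inf_eq_left.mpr hSA]
      rw [h7] at hy
      obtain ⟨z, hz, hzy⟩ := hy
      have : z = ⟨y, hyA⟩ := Subtype.ext hzy
      rwa [← this]
    have h2 := eq_bot_of_perfect hPF hPP
    apply hS.ne
    intro x hx
    rw [hkφ x (hSA hx)]
    have h3 : φ ⟨x, hSA hx⟩ ∈ P := mem_map_of_mem φ (mem_subgroupOf.mpr hx)
    rwa [h2, mem_bot] at h3

/-! ### The configuration -/

theorem fact_ineq {d : ℕ} (h6 : 6 ≤ d) : 24 * 5 ≤ (d - 1).factorial ∧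
    d.factorial = d * (d - 1).factorial ∧ 4 * d < (d - 1).factorial := by
  obtain ⟨n, rfl⟩ : ∃ n, d = n + 6 := ⟨d - 6, by omega⟩
  have e : n + 6 - 1 = n + 5 := by omega
  rw [e]
  have h1 : 5 ≤ n + 5 := by omega
  have h2 : (5).factorial ≤ (n + 5).factorial := Nat.factorial_le h1
  have h3 : (5).factorial = 120 := rfl
  refine ⟨by omega, ?_, ?_⟩
  · rw [Nat.factorial_succ]
  · have h4 : (n + 5).factorial = (n + 5) * (n + 4).factorial := Nat.factorial_succ _
    have h5 : (4).factorial ≤ (n + 4).factorial := Nat.factorial_le (by omega)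
    have h6 : (4).factorial = 24 := rfl
    rw [h6] at h5
    have h7 : (n + 5) * 24 ≤ (n + 5) * (n + 4).factorial := Nat.mul_le_mul_left _ h5
    omega

variable [Finite G] [FaithfulSMul G Ω]

theorem exists_conf (hprim : IsPreprimitive G Ω) {a b : Ω} (h6 : 6 ≤ Nat.card (Orb G a b))
    (hA : AltOn (stabilizer G a) (Orb G a b)) (hB : AltOn (stabilizer G b) (Orb G b a))
    (hK : (K a b : Subgroup G) ≠ ⊥) : ∃ (SA SB SD SE : Subgroup G) (s t : ℕ),
      Conf (stabilizer G a) (stabilizer G b) (K a b) (K b a) SA SB SD SE s t ∧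
      2 * s = (Nat.card (Orb G a b) - 1).factorial ∧
      2 * t = (Nat.card (Orb G a b)).factorial := by
  have hd : Nat.card (Orb G b a) = Nat.card (Orb G a b) := card_orbit_eq a b
  have h6' : 6 ≤ Nat.card (Orb G b a) := by rw [hd]; exact h6
  have h2 : 2 ≤ Nat.card (orbit (stabilizer G a) b) := by
    have : 6 ≤ Nat.card (orbit (stabilizer G a) b) := h6
    omega
  have hF := fitting_ind hA h6
  obtain ⟨SA, aA, cA, uA⟩ := as_left hA h6
  obtain ⟨SB, aB, cB, uB⟩ := as_left hB h6'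
  obtain ⟨SD, aD, cD, uD⟩ := as_inf hA h6
  obtain ⟨SE, aE, cE, uE⟩ := as_inf hB h6'
  rw [inf_comm] at aE uE
  rw [hd] at cB uB cE uE
  obtain ⟨n1, n2, n3⟩ := fact_ineq h6
  have hfit := fitting_inf_eq_bot hprim h2 hF
  refine ⟨SA, SB, SD, SE, (K a b).relIndex SD, (K a b).relIndex SA,
    ⟨aA, aB, aD, aE, rfl, by omega, rfl, by omega, by omega, by omega, by omega, by omega, ?_, ?_,
      by omega, ?_, ?_, ?_, ?_, ?_, hK⟩, cD, cA⟩
  · -- `2 s < t`
    have h7 : 6 * (Nat.card (Orb G a b) - 1).factorial ≤ (Nat.card (Orb G a b)).factorial := by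
      rw [n2]; exact Nat.mul_le_mul_right _ h6
    omega
  · -- `2 t < s * s`
    have h7 : 4 * (Nat.card (Orb G a b)) * (Nat.card (Orb G a b) - 1).factorial <
        (Nat.card (Orb G a b) - 1).factorial * (Nat.card (Orb G a b) - 1).factorial :=
      Nat.mul_lt_mul_of_pos_right n3 (Nat.factorial_pos _)
    rw [mul_assoc, ← n2, ← cD] at h7
    rw [cA]
    have e : 2 * (K a b).relIndex SD * (2 * (K a b).relIndex SD) =
      4 * ((K a b).relIndex SD * (K a b).relIndex SD) := by ring
    rw [e] at h7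
    exact Nat.lt_of_mul_lt_mul_left h7
  · intro M h1 h3
    exact hA.max (inv_orb a b) (by rw [card_ft]; omega) (mem_orbit_self b) h1 h3
  · intro M h1 h3
    rw [inf_comm] at h1
    have := hB.max (inv_orb b a) (by rw [card_ft]; omega) (mem_orbit_self a) h1 h3
    rwa [inf_comm] at this
  · obtain ⟨g, hg⟩ := exists_smul_eq G a b
    refine ⟨g, ?_⟩
    rw [← hg, stabilizer_smul_eq_stabilizer_map_conj]
  · intro X hX hn hc
    have h1 : (X.subgroupOf (stabilizer G a ⊓ stabilizer G b)).Normal := by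
      rw [normal_subgroupOf_iff_le_normalizer hX]; exact hn
    have h3 : Group.IsNilpotent (X.subgroupOf (stabilizer G a ⊓ stabilizer G b)) := by
      have hcomm : ∀ x ∈ X, ∀ y ∈ X, x * y = y * x := by
        intro x hx y hy
        rw [commutator_eq_bot_iff_le_centralizer] at hc
        exact (mem_centralizer_iff.mp (hc hx) y hy).symm
      have : IsMulCommutative (X.subgroupOf (stabilizer G a ⊓ stabilizer G b)) :=
        ⟨⟨fun x y => Subtype.ext (Subtype.ext (hcomm _ x.2 _ y.2))⟩⟩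
      let _ := IsMulCommutative.instCommGroup (G := X.subgroupOf (stabilizer G a ⊓ stabilizer G b))
      infer_instance
    have h4 := Cfsg.Agent.Lib.Cores.le_fittingSubgroup h1 h3
    rw [hfit, le_bot_iff, subgroupOf_eq_bot] at h4
    exact h4.eq_bot_of_le hX
  · intro X hX h1 h3
    by_contra hne
    have hnt : Nontrivial Ω := ⟨a, b, ne_of_two_le h2⟩
    have h4 := normalizer_le hprim a X (hX.trans inf_le_left) hne h1
    have h5 := normalizer_le hprim b X (hX.trans inf_le_right) hne h3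
    exact stabilizer_ne_of_two_le h2 (le_antisymm (h1.trans h5) (h3.trans h4))

/-! ### The paired suborbit -/

theorem le_T {a b : Ω} {X : Subgroup G} (hX : X ≤ K b a)
    (hn : stabilizer G a ≤ normalizer (X : Set G)) : X ≤ T a b := by
  intro x hx
  rw [mem_T]
  rintro _ ⟨⟨g, hg⟩, rfl⟩
  have h1 : g⁻¹ * x * g ∈ X := by
    have := (mem_normalizer_iff.mp (hn ((stabilizer G a).inv_mem hg)) x).mp hx
    rwa [inv_inv] at this
  have h2 := conj_mem_K g (hX h1)
  rw [mem_stabilizer_iff.mp hg] at h2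
  have e : g * (g⁻¹ * x * g) * g⁻¹ = x := by group
  rwa [e] at h2

theorem core_alt (hprim : IsPreprimitive G Ω) {a b : Ω} (h6 : 6 ≤ Nat.card (Orb G a b))
    (hA : AltOn (stabilizer G a) (Orb G a b)) (hK : (K a b : Subgroup G) ≠ ⊥) :
    (∀ X ≤ (K b a : Subgroup G), stabilizer G a ≤ normalizer (X : Set G) → X = ⊥) ∨
    (∀ X ≤ (K a b : Subgroup G), stabilizer G b ≤ normalizer (X : Set G) → X = ⊥) := by
  have h2 : 2 ≤ Nat.card (orbit (stabilizer G a) b) := by
    have : 6 ≤ Nat.card (orbit (stabilizer G a) b) := h6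
    omega
  have hF := fitting_ind hA h6
  have hT := T_eq_bot_or hprim h2 (fun q hq h => by
    have := Fact.mk hq
    exact hK (K_eq_bot_of_genFitting_eq hprim h2 hF q h))
  rcases hT with hT | hT
  · left
    intro X hX hn
    rw [eq_bot_iff, ← hT]
    exact le_T hX hn
  · right
    intro X hX hn
    rw [eq_bot_iff, ← hT]
    exact le_T hX hn

theorem altOn_paired (hprim : IsPreprimitive G Ω) {a b : Ω} (h6 : 6 ≤ Nat.card (Orb G a b))
    (hA : AltOn (stabilizer G a) (Orb G a b)) (hK : (K a b : Subgroup G) ≠ ⊥) :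
    AltOn (stabilizer G b) (Orb G b a) := by
  have hd : Nat.card (Orb G b a) = Nat.card (Orb G a b) := card_orbit_eq a b
  have hT := core_alt hprim h6 hA hK
  obtain ⟨SA, aA, cA, uA⟩ := as_left hA h6
  obtain ⟨n1, n2, n3⟩ := fact_ineq h6
  obtain ⟨g, hg⟩ := exists_smul_eq G a b
  have hg' : cj g (stabilizer G a) = stabilizer G b := by
    rw [← hg, stabilizer_smul_eq_stabilizer_map_conj]
  have r1 := relIndex_inf_le (G := G) a b
  have r2 := relIndex_inf_le (G := G) b a
  rw [inf_comm, hd] at r2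
  have hn : ((Nat.card (Orb G a b)) - 1).factorial < (K a b).relIndex SA := by
    have h7 : 6 * (Nat.card (Orb G a b) - 1).factorial ≤ (Nat.card (Orb G a b)).factorial := by
      rw [n2]; exact Nat.mul_le_mul_right _ h6
    omega
  have hle := le_cj_of aA (le_normalizer_K b a) (K_le_inf a b)
    (by rw [inf_comm]; exact K_le_inf b a) r1 r2 hn hg' hT
  refine altOn_of_relIndex (inv_orb b a) (fun w hw => mem_K_iff hw) ?_
  rw [card_ft, hd, ← cA]
  refine Nat.mul_le_mul_left 2 ?_
  have h1 : (K a b).relIndex SA ≤ (K a b).relIndex (stabilizer G a) :=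
    relIndex_le_of_le_right aA.SW (Conf.relIndex_ne _ _)
  have h3 : (cj g (K a b)).relIndex (stabilizer G b) ≤ (K b a).relIndex (stabilizer G b) :=
    relIndex_le_of_le_left hle (Conf.relIndex_ne _ _)
  rw [← hg', relIndex_cj, hg'] at h3
  exact h1.trans h3

end fin

end Cfsg.Agent.H508.AltMain
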