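import Mathlib
import Cfsg.Agent.SylowL.UT
import Cfsg.Agent.Lib.FrattiniPGroup

/-!
# Generators of groups of unitriangular matrices over a prime field

Every subgroup of the group of upper unitriangular `n × n` matrices over the integers modulo `p` is generated by
at most `n² / 4` elements.  The proof takes leading positions of elements (last nonzero row, then first nonzero
column) and applies Mantel's theorem to the graph of those positions that are not leading positions of commutators.
-/

set_option autoImplicit false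
set_option linter.style.haveILetI false

namespace Cfsg.Agent.H508.Patterson

open Cfsg.Agent.SylowL.UT Cfsg.Agent.SylowL.Lev
open scoped commutatorElement

variable {n : ℕ}

/-- The place of a position in the order "last row first, then first column first". -/
def pos (i j : Fin n) : ℕ := n * (n - 1 - i) + j

theorem pos_lt_of_row {i i' : Fin n} (h : i' < i) (j j' : Fin n) : pos i j < pos i' j' := by
  unfold pos
  have h1 : (n - 1 - (i : ℕ)) + 1 ≤ n - 1 - (i' : ℕ) := by
    have := i.2
    have : (i' : ℕ) < i := h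
    omega
  have h2 : n * ((n - 1 - (i : ℕ)) + 1) ≤ n * (n - 1 - (i' : ℕ)) := Nat.mul_le_mul_left n h1
  have h3 := j.2
  rw [mul_add, mul_one] at h2
  omega

theorem pos_lt_of_col (i : Fin n) {j j' : Fin n} (h : j < j') : pos i j < pos i j' := by
  unfold pos
  have : (j : ℕ) < j' := h
  omega

theorem pos_lt_bound (i j : Fin n) : pos i j < n * n := by
  unfold pos
  have h1 : n - 1 - (i : ℕ) + 1 ≤ n := by
    have := i.2
    omega
  have h2 := Nat.mul_le_mul_left n h1
  rw [mul_add, mul_one] at h2
  have := j.2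
  omega

theorem pos_injective {i j i' j' : Fin n} (h : pos i j = pos i' j') : i = i' ∧ j = j' := by
  rcases lt_trichotomy i i' with h1 | h1 | h1
  · exact absurd h (pos_lt_of_row h1 j' j).ne'
  · subst h1
    refine ⟨rfl, ?_⟩
    rcases lt_trichotomy j j' with h2 | h2 | h2
    · exact absurd h (pos_lt_of_col i h2).ne
    · exact h2
    · exact absurd h (pos_lt_of_col i h2).ne'
  · exact absurd h (pos_lt_of_row h1 j j').ne

section

variable {p : ℕ} [hp : Fact p.Prime] {X : Type*} [Group X] (f : X →* UT n (ZMod p))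

/-- The matrix entries of `f x - 1`. -/
def ent (x : X) (i j : Fin n) : ZMod p := N (f x) i j

/-- All entries before `t` vanish. -/
def Van (t : ℕ) (x : X) : Prop := ∀ i j : Fin n, pos i j < t → ent f x i j = 0

theorem ent_eq_zero_of_le (x : X) {i j : Fin n} (h : j ≤ i) : ent f x i j = 0 := by
  have : (j : ℕ) ≤ i := h
  exact apply_eq_zero (N_mem (f x)) (by omega)

theorem ent_mul (x y : X) (i j : Fin n) :
    ent f (x * y) i j = ent f x i j + ent f y i j + ∑ c, ent f x i c * ent f y c j := by
  unfold ent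
  rw [map_mul, N_mul, Matrix.add_apply, Matrix.add_apply, Matrix.mul_apply]

/-- The product term vanishes up to the level of the right factor. -/
theorem sum_eq_zero (x : X) {y : X} {t : ℕ} (hy : Van f t y) {i j : Fin n} (hij : pos i j ≤ t) :
    ∑ c, ent f x i c * ent f y c j = 0 := by
  refine Finset.sum_eq_zero fun c _ => ?_
  by_cases hc : c ≤ i
  · rw [ent_eq_zero_of_le f x hc, zero_mul]
  · rw [hy c j (lt_of_lt_of_le (pos_lt_of_row (not_le.1 hc) j j) hij), mul_zero]

theorem ent_mul_of_van (x : X) {y : X} {t : ℕ} (hy : Van f t y) {i j : Fin n} (hij : pos i j ≤ t) :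
    ent f (x * y) i j = ent f x i j + ent f y i j := by
  rw [ent_mul, sum_eq_zero f x hy hij, add_zero]

theorem van_one (t : ℕ) : Van f t 1 := by
  intro i j _
  simp [ent]

theorem van_mul {t : ℕ} {x y : X} (hx : Van f t x) (hy : Van f t y) : Van f t (x * y) := by
  intro i j hij
  rw [ent_mul_of_van f x hy hij.le, hx i j hij, hy i j hij, add_zero]

theorem van_pow {t : ℕ} {x : X} (hx : Van f t x) (k : ℕ) : Van f t (x ^ k) := by
  induction k with
  | zero => rw [pow_zero]; exact van_one f t
  | succ k ih => rw [pow_succ]; exact van_mul f ih hx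

theorem ent_pow_of_van {t : ℕ} {x : X} (hx : Van f t x) {i j : Fin n} (hij : pos i j ≤ t) (k : ℕ) :
    ent f (x ^ k) i j = k * ent f x i j := by
  induction k with
  | zero => simp [ent]
  | succ k ih =>
    rw [pow_succ, ent_mul_of_van f _ hx hij, ih]
    push_cast
    ring

theorem eq_one_of_van (hf : Function.Injective f) {x : X} (hx : Van f (n * n) x) : x = 1 := by
  apply hf
  rw [map_one, ← N_eq_zero_iff]
  ext i j
  exact hx i j (pos_lt_bound i j)

/-- `t` is the leading place of `x`. -/
def Lead (t : ℕ) (x : X) : Prop := Van f t x ∧ ¬ Van f (t + 1) x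

theorem lead_iff {t : ℕ} {x : X} : Lead f t x ↔
    Van f t x ∧ ∃ i j : Fin n, pos i j = t ∧ ent f x i j ≠ 0 := by
  constructor
  · rintro ⟨h1, h2⟩
    refine ⟨h1, ?_⟩
    unfold Van at h2
    push Not at h2
    obtain ⟨i, j, hij, hne⟩ := h2
    refine ⟨i, j, ?_, hne⟩
    by_contra hcon
    exact hne (h1 i j (by omega))
  · rintro ⟨h1, i, j, hij, hne⟩
    exact ⟨h1, fun h2 => hne (h2 i j (by omega))⟩

/-- Leading places of commutators. -/
theorem lead_commutator {x y : X} {i m j : Fin n} (hx : Lead f (pos i m) x) (hy : Lead f (pos m j) y) :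
    Lead f (pos i j) ⁅x, y⁆ := by
  rw [lead_iff] at hx hy ⊢
  obtain ⟨hx1, i1, m1, h1, hx2⟩ := hx
  obtain ⟨rfl, rfl⟩ := pos_injective h1
  obtain ⟨hy1, m2, j1, h2, hy2⟩ := hy
  obtain ⟨rfl, rfl⟩ := pos_injective h2
  have him : i1 < m2 := by
    by_contra hcon
    exact hx2 (ent_eq_zero_of_le f x (not_lt.1 hcon))
  have hmj : m2 < j1 := by
    by_contra hcon
    exact hy2 (ent_eq_zero_of_le f y (not_lt.1 hcon))
  -- the difference of products
  let D : Fin n → Fin n → ZMod p := fun a b => ent f (x * y) a b - ent f (y * x) a b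
  have hD : ∀ a b, D a b = (∑ c, ent f x a c * ent f y c b) - ∑ c, ent f y a c * ent f x c b := by
    intro a b
    change ent f (x * y) a b - ent f (y * x) a b = _
    rw [ent_mul, ent_mul]
    ring
  have hxrow : ∀ a b, i1 < a → ent f x a b = 0 := fun a b h => hx1 a b (pos_lt_of_row h b m2)
  have hyrow : ∀ a b, m2 < a → ent f y a b = 0 := fun a b h => hy1 a b (pos_lt_of_row h b j1)
  have hxcol : ∀ b, b < m2 → ent f x i1 b = 0 := fun b h => hx1 i1 b (pos_lt_of_col i1 h)
  have hycol : ∀ b, b < j1 → ent f y m2 b = 0 := fun b h => hy1 m2 b (pos_lt_of_col m2 h)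
  have hsum2 : ∀ a b, i1 ≤ a → ∑ c, ent f y a c * ent f x c b = 0 := by
    intro a b hab
    refine Finset.sum_eq_zero fun c _ => ?_
    by_cases hc : c ≤ a
    · rw [ent_eq_zero_of_le f y hc, zero_mul]
    · rw [hxrow c b (lt_of_le_of_lt hab (not_le.1 hc)), mul_zero]
  have hsum1 : ∀ a b, i1 < a → ∑ c, ent f x a c * ent f y c b = 0 := by
    intro a b hab
    refine Finset.sum_eq_zero fun c _ => ?_
    rw [hxrow a c hab, zero_mul]
  have hsum3 : ∀ b, ∑ c, ent f x i1 c * ent f y c b = ent f x i1 m2 * ent f y m2 b := by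
    intro b
    rw [Finset.sum_eq_single m2]
    · intro c _ hc
      rcases lt_or_gt_of_ne hc with h | h
      · rw [hxcol c h, zero_mul]
      · rw [hyrow c b h, mul_zero]
    · intro h
      exact absurd (Finset.mem_univ _) h
  have hDrow : ∀ a b, i1 < a → D a b = 0 := by
    intro a b hab
    rw [hD, hsum1 a b hab, hsum2 a b hab.le, sub_zero]
  have hDi : ∀ b, D i1 b = ent f x i1 m2 * ent f y m2 b := by
    intro b
    rw [hD, hsum2 i1 b le_rfl, sub_zero, hsum3]
  -- relation with the commutator
  have hcomm : ∀ a b, ent f ⁅x, y⁆ a b = D a b + ∑ c, D a c * ent f (y * x)⁻¹ c b := by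
    intro a b
    have h1 : ⁅x, y⁆ = (x * y) * (y * x)⁻¹ := by rw [commutatorElement_def]; group
    have h3 : ent f ((y * x) * (y * x)⁻¹) a b = 0 := by
      rw [mul_inv_cancel]; simp [ent]
    rw [ent_mul] at h3
    rw [h1, ent_mul]
    have h4 : ∑ c, D a c * ent f (y * x)⁻¹ c b =
        (∑ c, ent f (x * y) a c * ent f (y * x)⁻¹ c b) - ∑ c, ent f (y * x) a c * ent f (y * x)⁻¹ c b := by
      rw [← Finset.sum_sub_distrib]
      refine Finset.sum_congr rfl fun c _ => ?_
      change (ent f (x * y) a c - ent f (y * x) a c) * _ = _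
      ring
    rw [h4]
    change _ = (ent f (x * y) a b - ent f (y * x) a b) + _
    have h5 : ent f (y * x)⁻¹ a b = - ent f (y * x) a b - ∑ c, ent f (y * x) a c * ent f (y * x)⁻¹ c b := by
      linear_combination h3
    rw [h5]
    ring
  have hcommrow : ∀ a b, i1 < a → ent f ⁅x, y⁆ a b = 0 := by
    intro a b hab
    rw [hcomm, hDrow a b hab, zero_add]
    exact Finset.sum_eq_zero fun c _ => by rw [hDrow a c hab, zero_mul]
  have hcommi : ∀ b, b ≤ j1 → ent f ⁅x, y⁆ i1 b = D i1 b := by
    intro b hb
    rw [hcomm]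
    convert add_zero _
    refine Finset.sum_eq_zero fun c _ => ?_
    by_cases hc : c < j1
    · rw [hDi, hycol c hc, mul_zero, zero_mul]
    · rw [ent_eq_zero_of_le f _ (hb.trans (not_lt.1 hc)), mul_zero]
  refine ⟨?_, i1, j1, rfl, ?_⟩
  · intro a b hab
    rcases lt_trichotomy a i1 with h | h | h
    · exact absurd hab (not_lt.2 (pos_lt_of_row h j1 b).le)
    · subst h
      have hb : b < j1 := by
        by_contra hcon
        rcases (not_lt.1 hcon).lt_or_eq with h | h
        · exact absurd hab (not_lt.2 (pos_lt_of_col a h).le)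
        · subst h; exact absurd hab (lt_irrefl _)
      rw [hcommi b hb.le, hDi, hycol b hb, mul_zero]
    · exact hcommrow a b h
  · rw [hcommi j1 le_rfl, hDi]
    exact mul_ne_zero hx2 hy2

/-- **Generators of unitriangular groups.** A finite `p`-group that embeds into the group of upper unitriangular
`n × n` matrices over the integers modulo `p` is generated by at most `n² / 4` elements. -/
theorem exists_gen [Finite X] (hX : IsPGroup p X) (hf : Function.Injective f) :
    ∃ T : Finset X, 4 * T.card ≤ n ^ 2 ∧ Subgroup.closure (T : Set X) = ⊤ := by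
  classical
  let Y : Subgroup X := commutator X
  -- places which are leading places of elements but not of elements of the derived subgroup
  let B : Finset ℕ := (Finset.range (n * n)).filter
    (fun t => (∃ x, Lead f t x) ∧ ¬ ∃ y ∈ Y, Lead f t y)
  let z : ℕ → X := fun t => if h : ∃ x, Lead f t x then h.choose else 1
  have hz : ∀ t, (∃ x, Lead f t x) → Lead f t (z t) := by
    intro t ht
    simp only [z, dif_pos ht]
    exact ht.choose_spec
  let T : Finset X := B.image z
  let K : Subgroup X := Subgroup.closure (T : Set X) ⊔ Y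
  have hKlead : ∀ t, (∃ x, Lead f t x) → ∃ w ∈ K, Lead f t w := by
    intro t ht
    by_cases h : ∃ y ∈ Y, Lead f t y
    · obtain ⟨y, hy, hl⟩ := h
      exact ⟨y, (le_sup_right : Y ≤ K) hy, hl⟩
    · refine ⟨z t, (le_sup_left : Subgroup.closure (T : Set X) ≤ K) (Subgroup.subset_closure ?_), hz t ht⟩
      have htB : t ∈ B := by
        refine Finset.mem_filter.2 ⟨?_, ht, h⟩
        obtain ⟨x, hx⟩ := ht
        obtain ⟨-, i, j, hij, -⟩ := (lead_iff f).1 hx
        rw [Finset.mem_range, ← hij]
        exact pos_lt_bound i j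
      exact Finset.mem_coe.2 (Finset.mem_image_of_mem z htB)
  have hKtop : ∀ s t : ℕ, s + t = n * n → ∀ x, Van f t x → x ∈ K := by
    intro s
    induction s with
    | zero =>
      intro t ht x hx
      rw [zero_add] at ht
      subst ht
      rw [eq_one_of_van f hf hx]
      exact one_mem _
    | succ s ih =>
      intro t ht x hx
      by_cases h : Van f (t + 1) x
      · exact ih (t + 1) (by omega) x h
      · have hlx : Lead f t x := ⟨hx, h⟩
        obtain ⟨w, hwK, hw⟩ := hKlead t ⟨x, hlx⟩
        obtain ⟨-, i, j, hij, hne⟩ := (lead_iff f).1 hw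
        -- choose the exponent
        let c : ZMod p := - (ent f x i j) / ent f w i j
        have hc : ((c.val : ℕ) : ZMod p) * ent f w i j = - ent f x i j := by
          rw [ZMod.natCast_zmod_val]
          exact div_mul_cancel₀ _ hne
        have hvan : Van f (t + 1) (x * w ^ c.val) := by
          intro a b hab
          have hab' : pos a b ≤ t := by omega
          rw [ent_mul_of_van f x (van_pow f hw.1 _) hab', ent_pow_of_van f hw.1 hab']
          rcases hab'.lt_or_eq with h1 | h1
          · rw [hx a b h1, hw.1 a b h1, mul_zero, add_zero]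
          · obtain ⟨rfl, rfl⟩ := pos_injective (h1.trans hij.symm)
            rw [hc]
            ring
        have h1 := ih (t + 1) (by omega) _ hvan
        have h2 : x = (x * w ^ c.val) * (w ^ c.val)⁻¹ := by group
        rw [h2]
        exact mul_mem h1 (inv_mem (pow_mem hwK _))
  have hK : K = ⊤ := by
    rw [eq_top_iff]
    intro x _
    exact hKtop (n * n) 0 (by omega) x (fun i j h => absurd h (Nat.not_lt_zero _))
  have hTtop : Subgroup.closure (T : Set X) = ⊤ := by
    apply frattini_nongenerating
    rw [eq_top_iff, ← hK]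
    exact sup_le_sup_left (Cfsg.Agent.Lib.FrattiniPGroup.commutator_le_frattini hX) _
  refine ⟨T, ?_, hTtop⟩
  -- Mantel
  have hTB : T.card ≤ B.card := Finset.card_image_le
  let G : SimpleGraph (Fin n) := SimpleGraph.fromRel (fun i j => i < j ∧ pos i j ∈ B)
  have hGadj : ∀ i j, i < j → (G.Adj i j ↔ pos i j ∈ B) := by
    intro i j hij
    rw [SimpleGraph.fromRel_adj]
    constructor
    · rintro ⟨-, h | h⟩
      · exact h.2
      · exact absurd hij (not_lt.2 h.1.le)
    · intro h
      exact ⟨hij.ne, Or.inl ⟨hij, h⟩⟩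
  have hfree3 : ∀ i m j : Fin n, i < m → m < j → G.Adj i m → G.Adj m j → ¬ G.Adj i j := by
    intro i m j him hmj h1 h2 h3
    rw [hGadj i m him] at h1
    rw [hGadj m j hmj] at h2
    rw [hGadj i j (him.trans hmj)] at h3
    obtain ⟨x, hx⟩ := (Finset.mem_filter.1 h1).2.1
    obtain ⟨y, hy⟩ := (Finset.mem_filter.1 h2).2.1
    exact (Finset.mem_filter.1 h3).2.2
      ⟨⁅x, y⁆, Subgroup.commutator_mem_commutator (Subgroup.mem_top x) (Subgroup.mem_top y),
        lead_commutator f hx hy⟩
  have hfree : G.CliqueFree 3 := by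
    intro s hs
    rw [SimpleGraph.is3Clique_iff] at hs
    obtain ⟨a, b, c, hab, hac, hbc, -⟩ := hs
    rcases lt_or_gt_of_ne hab.ne with h1 | h1
    · rcases lt_or_gt_of_ne hbc.ne with h2 | h2
      · exact hfree3 a b c h1 h2 hab hbc hac
      · rcases lt_or_gt_of_ne hac.ne with h3 | h3
        · exact hfree3 a c b h3 h2 hac hbc.symm hab
        · exact hfree3 c a b h3 h1 hac.symm hab hbc.symm
    · rcases lt_or_gt_of_ne hbc.ne with h2 | h2
      · rcases lt_or_gt_of_ne hac.ne with h3 | h3
        · exact hfree3 b a c h1 h3 hab.symm hac hbc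
        · exact hfree3 b c a h2 h3 hbc hac.symm hab.symm
      · exact hfree3 c b a h2 h1 hbc.symm hab.symm hac.symm
  have hedge : B.card ≤ G.edgeFinset.card := by
    have hpl : ∀ t ∈ B, ∃ e : Fin n × Fin n, pos e.1 e.2 = t ∧ e.1 < e.2 := by
      intro t ht
      obtain ⟨x, hx⟩ := (Finset.mem_filter.1 ht).2.1
      obtain ⟨-, i, j, hij, hne⟩ := (lead_iff f).1 hx
      refine ⟨(i, j), hij, ?_⟩
      by_contra hcon
      exact hne (ent_eq_zero_of_le f x (not_lt.1 hcon))
    choose e he1 he2 using hpl
    rw [← Finset.card_attach]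
    refine Finset.card_le_card_of_injOn (fun t => s((e t.1 t.2).1, (e t.1 t.2).2)) ?_ ?_
    · rintro ⟨t, ht⟩ -
      rw [Finset.mem_coe, SimpleGraph.mem_edgeFinset, SimpleGraph.mem_edgeSet, hGadj _ _ (he2 t ht), he1 t ht]
      exact ht
    · rintro ⟨t, ht⟩ - ⟨t', ht'⟩ - h
      have h' : s((e t ht).1, (e t ht).2) = s((e t' ht').1, (e t' ht').2) := h
      rw [Sym2.eq_iff] at h'
      rcases h' with ⟨h1, h2⟩ | ⟨h1, h2⟩
      · apply Subtype.ext
        change t = t'
        rw [← he1 t ht, ← he1 t' ht', h1, h2]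
      · exfalso
        have h3 := he2 t ht
        have h4 := he2 t' ht'
        rw [h1, h2] at h3
        exact lt_asymm h3 h4
  have hturan := hfree.card_edgeFinset_le (r := 2)
  simp only [Fintype.card_fin] at hturan
  have hmod : n % 2 < 2 := Nat.mod_lt _ (by norm_num)
  have hch : (n % 2).choose 2 = 0 := Nat.choose_eq_zero_of_lt hmod
  rw [hch] at hturan
  have h4 : G.edgeFinset.card * 4 ≤ n ^ 2 := by
    have h5 : G.edgeFinset.card ≤ n ^ 2 / 4 := by
      refine hturan.trans ?_
      rw [add_zero]
      norm_num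
      exact Nat.div_le_div_right (Nat.sub_le _ _)
    calc _ ≤ (n ^ 2 / 4) * 4 := Nat.mul_le_mul_right 4 h5
      _ ≤ n ^ 2 := Nat.div_mul_le_self _ _
  omega

end

end Cfsg.Agent.H508.Patterson
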